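import Cfsg.Prelude.Def_GeometricClasses
import Cfsg.Prelude.Def_LieClassical

/-!
# Class 6 in `SU`, in the form of the statements for `n = 5, 7, 11` (helper821)
-/

set_option autoImplicit false

namespace Cfsg.Agent.H821.SuSix

open Cfsg Cfsg.Geo Matrix
open scoped MatrixGroups

variable {F : Type*} [Field F] [Fintype F] {n q : ℕ}

theorem frob_sub (hF : Fintype.card F = q ^ 2) (x y : F) : (x + y) ^ q = x ^ q + y ^ q := by
  obtain ⟨p, hp⟩ := CharP.exists F
  have := hp
  have hpp : p.Prime := CharP.char_is_prime F p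
  have := Fact.mk hpp
  obtain ⟨e, -, he⟩ := FiniteField.card F p
  have h1 : q ∣ p ^ (e : ℕ) := by rw [← he, hF, pow_two]; exact dvd_mul_right _ _
  obtain ⟨k, -, hk⟩ := (Nat.dvd_prime_pow hpp).1 h1
  rw [hk]
  exact add_pow_char_pow x y p k

theorem pow_q_q (hF : Fintype.card F = q ^ 2) (x : F) : (x ^ q) ^ q = x := by
  rw [← pow_mul, ← pow_two, ← hF, FiniteField.pow_card]

theorem q_pos (hF : Fintype.card F = q ^ 2) : 0 < q := by
  rcases Nat.eq_zero_or_pos q with h | h
  · rw [h] at hF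
    have := Fintype.card_pos (α := F)
    omega
  · exact h

theorem herm_swap (hF : Fintype.card F = q ^ 2) (u v : Fin n → F) :
    hermForm n F q v u = (hermForm n F q u v) ^ q := by
  classical
  unfold hermForm
  have h1 : ∀ s : Finset (Fin n), (∑ i ∈ s, u i * v i ^ q) ^ q = ∑ i ∈ s, v i * u i ^ q := by
    intro s
    induction s using Finset.induction_on with
    | empty => simp [(q_pos hF).ne']
    | insert a s ha ih =>
      rw [Finset.sum_insert ha, Finset.sum_insert ha, frob_sub hF, ih, mul_pow, pow_q_q hF, mul_comm]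
  rw [h1]

theorem herm_single (_hF : Fintype.card F = q ^ 2) (i : Fin n) :
    hermForm n F q (Pi.single i 1) (Pi.single i 1) = 1 := by
  classical
  unfold hermForm
  rw [Finset.sum_eq_single i]
  · simp
  · intro j _ hj
    rw [Pi.single_eq_of_ne hj, zero_mul]
  · simp

/-- an element of order prime to `q - 1` of the similarity group is an isometry -/
theorem mem_GU_of_pow (hF : Fintype.card F = q ^ 2) (i : Fin n) {r : ℕ} (hr : r.Prime) (hrq : ¬ r ∣ q - 1)
    {g : GL (Fin n) F} (hg : g ∈ similarityGroup (hermForm n F q)) (hgr : g ^ r = 1) : g ∈ GU n F q := by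
  obtain ⟨c, hc⟩ := hg
  -- `c ^ q = c`
  have h1 : (c : F) ^ q = c := by
    have h2 := herm_swap hF ((g : Matrix (Fin n) (Fin n) F) *ᵥ (Pi.single i 1)) ((g : Matrix (Fin n) (Fin n) F) *ᵥ (Pi.single i 1))
    rw [hc, herm_single hF, mul_one] at h2
    exact h2.symm
  -- `c ^ r = 1`
  have h3 : ∀ k : ℕ, ∀ u v, hermForm n F q (((g ^ k : GL (Fin n) F) : Matrix (Fin n) (Fin n) F) *ᵥ u)
      (((g ^ k : GL (Fin n) F) : Matrix (Fin n) (Fin n) F) *ᵥ v) = (c : F) ^ k * hermForm n F q u v := by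
    intro k
    induction k with
    | zero => intro u v; simp
    | succ k ih =>
      intro u v
      rw [pow_succ, Units.val_mul, ← Matrix.mulVec_mulVec, ← Matrix.mulVec_mulVec, ih, hc, pow_succ]
      ring
  have h4 : (c : F) ^ r = 1 := by
    have h5 := h3 r (Pi.single i 1) (Pi.single i 1)
    rw [hgr, herm_single hF, mul_one, Units.val_one, Matrix.one_mulVec, herm_single hF] at h5
    exact h5.symm
  -- `c = 1`
  have h5 : (c : F) ^ (q - 1) = 1 := by
    have h6 : (c : F) ^ (q - 1) * c = 1 * c := by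
      rw [← pow_succ, Nat.sub_add_cancel (q_pos hF), h1, one_mul]
    exact mul_right_cancel₀ (Units.ne_zero c) h6
  have h6 : (c : F) ^ Nat.gcd r (q - 1) = 1 := by
    have h7 := orderOf_dvd_of_pow_eq_one h4
    have h8 := orderOf_dvd_of_pow_eq_one h5
    exact orderOf_dvd_iff_pow_eq_one.1 (Nat.dvd_gcd h7 h8)
  rw [(Nat.Prime.coprime_iff_not_dvd hr).2 hrq, pow_one] at h6
  intro u v
  have h7 := hc u v
  rw [h6, one_mul] at h7
  exact h7

/-- a group `R` of symplectic type of class 6 lies in `GU_n(q)` -/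
theorem le_GU {r p e : ℕ} (hr5 : 5 ≤ r) (hn5 : 5 ≤ n) (hF : Fintype.card F = q ^ 2)
    {R : Subgroup (GL (Fin n) F)} (hR : IsSymplecticTypeGroup r R)
    (hRs : R ≤ similarityGroup (hermForm n F q)) (hmin : IsMinimalFieldFor r p e F) : R ≤ GU n F q := by
  have hodd : Odd r := hR.prime.odd_of_ne_two (by omega)
  -- `r ∤ q - 1`
  have hrq : ¬ r ∣ q - 1 := by
    obtain ⟨hp, hch, hc, h1, h2⟩ := hmin
    have h3 : q ∣ p ^ e := by rw [← hc, hF, pow_two]; exact dvd_mul_right _ _
    obtain ⟨d, hd, hqd⟩ := (Nat.dvd_prime_pow hp).1 h3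
    have h4 : e = 2 * d := by
      rw [hF, hqd, ← pow_mul] at hc
      have := Nat.pow_right_injective hp.two_le hc
      omega
    have hd0 : 0 < d := by
      rcases Nat.eq_zero_or_pos d with h | h
      · exfalso
        rw [h, mul_zero] at h4
        rw [h4, pow_zero] at hc
        have := Fintype.one_lt_card (α := F)
        omega
      · exact h
    rw [hqd]
    exact h2 d hd0 (by omega)
  intro g hg
  refine mem_GU_of_pow hF (⟨0, by omega⟩ : Fin n) hR.prime hrq (hRs hg) ?_
  have h1 := Monoid.pow_exponent_eq_one (⟨g, hg⟩ : R)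
  rw [hR.exponent_eq, (Nat.coprime_two_left.2 hodd), mul_one] at h1
  exact congrArg Subtype.val h1

/-! ### the numerical conditions for `n = 5`, `n = 7` -/

theorem dvd_pow_sub_iff {p m d : ℕ} (hp : 0 < p) : m ∣ p ^ d - 1 ↔ p ^ d ≡ 1 [MOD m] := by
  rw [Nat.ModEq.comm]
  exact (Nat.modEq_iff_dvd' (Nat.one_le_pow _ _ hp)).symm

theorem pow_mod_eq {p m a d : ℕ} (h : p % m = a) : p ^ d ≡ a ^ d [MOD m] := by
  have : p ≡ a [MOD m] := by
    unfold Nat.ModEq
    rw [← h, Nat.mod_mod]
  exact this.pow d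

theorem dvd_iff_of_mod {p m a d : ℕ} (hp : 0 < p) (h : p % m = a) : m ∣ p ^ d - 1 ↔ a ^ d ≡ 1 [MOD m] := by
  rw [dvd_pow_sub_iff hp]
  exact ⟨fun h1 => (pow_mod_eq h).symm.trans h1, fun h1 => (pow_mod_eq h).trans h1⟩

theorem minimal_of_mod {p m e : ℕ} (hp : p.Prime) (hch : CharP F p) (hF : Fintype.card F = p ^ e) {a : ℕ}
    (h : p % m = a) (h1 : a ^ e ≡ 1 [MOD m]) (h2 : ∀ d ∈ List.range e, 0 < d → ¬ a ^ d ≡ 1 [MOD m]) :
    IsMinimalFieldFor m p e F :=
  ⟨hp, hch, hF, (dvd_iff_of_mod hp.pos h).2 h1, fun d hd0 hd => fun h3 =>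
    h2 d (List.mem_range.2 hd) hd0 ((dvd_iff_of_mod hp.pos h).1 h3)⟩

theorem minimal_five_two {p : ℕ} (hp : p.Prime) (hch : CharP F p) (hF : Fintype.card F = p ^ 2) (h : p % 5 = 4) :
    IsMinimalFieldFor 5 p 2 F := minimal_of_mod hp hch hF h (by decide) (by decide)

theorem minimal_five_four {p : ℕ} (hp : p.Prime) (hch : CharP F p) (hF : Fintype.card F = p ^ 4)
    (h : p % 5 = 2 ∨ p % 5 = 3) : IsMinimalFieldFor 5 p 4 F := by
  rcases h with h | h
  · exact minimal_of_mod hp hch hF h (by decide) (by decide)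
  · exact minimal_of_mod hp hch hF h (by decide) (by decide)

theorem minimal_seven_two {p : ℕ} (hp : p.Prime) (hch : CharP F p) (hF : Fintype.card F = p ^ 2) (h : p % 7 = 6) :
    IsMinimalFieldFor 7 p 2 F := minimal_of_mod hp hch hF h (by decide) (by decide)

theorem minimal_seven_six {p : ℕ} (hp : p.Prime) (hch : CharP F p) (hF : Fintype.card F = p ^ 6)
    (h : p % 7 = 3 ∨ p % 7 = 5) : IsMinimalFieldFor 7 p 6 F := by
  rcases h with h | h
  · exact minimal_of_mod hp hch hF h (by decide) (by decide)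
  · exact minimal_of_mod hp hch hF h (by decide) (by decide)

end Cfsg.Agent.H821.SuSix
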